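import Mathlib
import Cfsg.Agent.H68.MeetBase
import Cfsg.Agent.UGT.EndJ1.Data
import Cfsg.Agent.CpAutJThree.Row
import Cfsg.Agent.H661.SporMcL
import Cfsg.Agent.NotCT.Orders

/-!
# Trivial intersections of Sylow 2-subgroups by counting: J1, J3, McL (helper265)
-/

set_option autoImplicit false

namespace Cfsg.Agent.H265.MeetC

open Subgroup Cfsg Cfsg.Agent.H68.MeetB

/-- conjugate elements have isomorphic centralizers -/
theorem card_cent_conj {G : Type*} [Group G] (g t : G) :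
    Nat.card (centralizer ({g * t * g⁻¹} : Set G)) = Nat.card (centralizer ({t} : Set G)) := by
  refine Nat.card_congr ⟨fun x => ⟨g⁻¹ * x * g, ?_⟩, fun x => ⟨g * x * g⁻¹, ?_⟩, fun x => ?_, fun x => ?_⟩
  · have h := mem_centralizer_singleton_iff.1 x.2
    rw [mem_centralizer_singleton_iff]
    calc g⁻¹ * (x : G) * g * t = g⁻¹ * (x * (g * t * g⁻¹)) * g := by group
      _ = g⁻¹ * ((g * t * g⁻¹) * x) * g := by rw [h]
      _ = t * (g⁻¹ * x * g) := by group
  · have h := mem_centralizer_singleton_iff.1 x.2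
    rw [mem_centralizer_singleton_iff]
    calc g * (x : G) * g⁻¹ * (g * t * g⁻¹) = g * (x * t) * g⁻¹ := by group
      _ = g * (t * x) * g⁻¹ := by rw [h]
      _ = g * t * g⁻¹ * (g * x * g⁻¹) := by group
  · apply Subtype.ext
    change g * (g⁻¹ * (x : G) * g) * g⁻¹ = x
    group
  · apply Subtype.ext
    change g⁻¹ * (g * (x : G) * g⁻¹) * g = x
    group

/-- counting, for one class of involutions -/
theorem meetIn_of_class {G : Type*} [Group G] [Finite G] {n b N : ℕ} (hN : Nat.card G = N) (hn : ¬ 2 ^ (n + 1) ∣ N)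
    (hb : ∀ y : G, orderOf y = 2 → Nat.card (centralizer ({y} : Set G)) = b)
    (hlt : (2 ^ n - 1) ^ 2 * b < N) : MeetIn 2 G := by
  have : Fact (Nat.Prime 2) := ⟨Nat.prime_two⟩
  refine MeetIn.of_centralizer (n := n) (b := b) (by rwa [hN]) (fun y hy => (hb y hy).le) ?_
  rw [hN]
  simpa using hlt

theorem meet2_J1 {G : Type*} [Group G] [Finite G] [IsSimpleGroup G] (h : Spor.IsoJ1 G) : MeetIn 2 G := by
  obtain ⟨e⟩ := h
  obtain ⟨D⟩ := Cfsg.Agent.UGT.EndJ1.Data.exists_dat
  have hfin : Finite Spor.J1 := D.fin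
  refine MeetIn.congr e.symm (meetIn_of_class (n := 3) (b := 120) D.card (by norm_num) (fun y hy => ?_) (by norm_num))
  obtain ⟨g, hg⟩ := D.conj_t (u := y) (by rw [← pow_two, ← hy, pow_orderOf_eq_one]) (by
    rintro rfl
    rw [orderOf_one] at hy
    omega)
  rw [← hg, card_cent_conj, D.card_C]

theorem meet2_J3 {G : Type*} [Group G] [Finite G] [IsSimpleGroup G] (h : Spor.IsoJ3 G) : MeetIn 2 G := by
  obtain ⟨h1, h2, -⟩ := Cfsg.Agent.CpAutJThree.base h
  exact meetIn_of_class (n := 7) (b := 1920) h1 (by norm_num) (fun y hy => (h2 y hy).2.1) (by norm_num)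

theorem meet2_McL {G : Type*} [Group G] [Finite G] [IsSimpleGroup G] (h : Spor.IsoMcL G) : MeetIn 2 G := by
  obtain ⟨-, -, hcard, ⟨L⟩⟩ := Cfsg.Agent.TypeM.FactsMcL.facts h
  refine meetIn_of_class (n := 7) (b := 40320) hcard (by norm_num) (fun y hy => ?_) (by norm_num)
  obtain ⟨g, hg⟩ := L.one y (by rw [← pow_two, ← hy, pow_orderOf_eq_one]) (by
    rintro rfl
    rw [orderOf_one] at hy
    omega)
  rw [← hg, card_cent_conj, Cfsg.Agent.H661.Spor.McL.card_C]

end Cfsg.Agent.H265.MeetC
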