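import Mathlib
import Cfsg.Agent.H265.Meet.Tab

/-!
# Trivial intersections of Sylow 2-subgroups: tables with a base (helper265)

As `H265.Meet.Tab`, for groups whose elements are determined by the images of the points of a list `B`; the
images under all elements of the 2-group are computed along a binary tree.
-/

set_option autoImplicit false

namespace Cfsg.Agent.H265.MeetT

open Subgroup Cfsg.Agent.SporadicA.PermTab Cfsg.Agent.H68.MeetB

/-- conjunction over a list -/
def allL (p : ℕ → Bool) : List ℕ → Bool := List.rec true (fun a _ ih => band (p a) ih)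

theorem allL_iff (p : ℕ → Bool) (L : List ℕ) : allL p L = true ↔ ∀ i ∈ L, p i = true := by
  induction L with
  | nil => simp [allL]
  | cons a L ih =>
    have h1 : allL p (a :: L) = band (p a) (allL p L) := rfl
    rw [h1, band_eq_true, ih]
    simp

/-- `a a = e` on the base -/
def chkSqB (B : List ℕ) (T : List ℕ) (A e : ℕ) : Bool := allL (fun i => Nat.beq (lk A (lk A i)) (evp T e i)) B

/-- `a b = e a` on the base -/
def chkCjB (B : List ℕ) (T : List ℕ) (A C e : ℕ) : Bool :=
  allL (fun i => Nat.beq (lk A (lk C i)) (evp T e (lk A i))) B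

/-- `a b = e a` on the base, for all `b` of a list -/
def chkCjsB (B : List ℕ) (T : List ℕ) (A : ℕ) : List ℕ → List ℕ → Bool
  | [], _ => true
  | _ :: _, [] => false
  | C :: R, e :: c => band (chkCjB B T A C e) (chkCjsB B T A R c)

/-- the certificate of a polycyclic sequence -/
def chkPCB (B : List ℕ) : List ℕ → List ℕ → List (List ℕ) → Bool
  | _, [], _ => true
  | _, _ :: _, [] => false
  | _, _ :: _, [] :: _ => false
  | T, A :: R, (e :: c) :: cs => band (chkSqB B T A e) (band (chkCjsB B T A T c) (chkPCB B (T ++ [A]) R cs))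

/-- a property of the images of three points under all products -/
def rAll (T : List ℕ) (k : ℕ → ℕ → ℕ → Bool) : ℕ → ℕ → ℕ → Bool :=
  List.rec (fun i j l => k i j l) (fun A _ ih i j l => band (ih i j l) (ih (lk A i) (lk A j) (lk A l))) T

theorem rAll_spec {k : ℕ → ℕ → ℕ → Bool} : ∀ (T : List ℕ) (i j l : ℕ), rAll T k i j l = true →
    ∀ e, k (evp T e i) (evp T e j) (evp T e l) = true := by
  intro T
  induction T with
  | nil => intro i j l h e; exact h
  | cons A T ih =>
    intro i j l h e
    have h1 : band (rAll T k i j l) (rAll T k (lk A i) (lk A j) (lk A l)) = true := h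
    rw [band_eq_true] at h1
    rw [evp_cons, evp_cons, evp_cons]
    cases hb : Nat.beq (e % 2) 1
    · exact ih _ _ _ h1.1 _
    · exact ih _ _ _ h1.2 _

/-- the hashes of `E x` are in the mask -/
def chkVR (N : ℕ) (T : List ℕ) (X : ℕ) (t : Test) : Bool :=
  rAll T (fun i j l => bit t.M (Nat.mod (Nat.add i (Nat.mul N (Nat.add j (Nat.mul N l)))) t.md))
    (lk X t.p1) (lk X t.p2) (lk X t.p3)

theorem chkVR_spec {N : ℕ} {T : List ℕ} {X : ℕ} {t : Test} (h : chkVR N T X t = true) (e : ℕ) :
    bit t.M (hsh N t.md t.p1 t.p2 t.p3 (fun q => evp T e (lk X q))) = true :=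
  rAll_spec T _ _ _ h e

/-- all numbers with `k` further binary digits -/
def allBin (p : ℕ → Bool) (k : ℕ) : ℕ → Bool :=
  Nat.rec (fun a => p a) (fun _ ih a => band (ih (Nat.mul 2 a)) (ih (Nat.succ (Nat.mul 2 a)))) k

theorem allBin_spec {p : ℕ → Bool} : ∀ (k a : ℕ), allBin p k a = true → ∀ e, e < 2 ^ k → p (2 ^ k * a + e) = true := by
  intro k
  induction k with
  | zero =>
    intro a h e he
    rw [pow_zero] at he ⊢
    obtain rfl : e = 0 := by omega
    rw [one_mul, add_zero]
    exact h
  | succ k ih =>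
    intro a h e he
    have h1 : band (allBin p k (2 * a)) (allBin p k (2 * a + 1)) = true := h
    rw [band_eq_true] at h1
    rw [pow_succ] at he ⊢
    rcases lt_or_ge e (2 ^ k) with h2 | h2
    · have h3 := ih _ h1.1 e h2
      have e1 : 2 ^ k * (2 * a) + e = 2 ^ k * 2 * a + e := by ring
      rwa [e1] at h3
    · obtain ⟨c, rfl⟩ : ∃ c, e = 2 ^ k + c := ⟨e - 2 ^ k, by omega⟩
      have h3 := ih _ h1.2 c (by omega)
      have e1 : 2 ^ k * (2 * a + 1) + c = 2 ^ k * 2 * a + (2 ^ k + c) := by ring
      rwa [e1] at h3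

/-- for `e ≠ 0`, some hash of `x e` is not in the mask -/
def chkUR (N : ℕ) (T : List ℕ) (X k : ℕ) (ts : List Test) : Bool :=
  allBin (fun e => cond (Nat.beq e 0) true (anyT N T X e ts)) k 0

section main

variable {G : Type*} [Group G] {N : ℕ} {f : G → ℕ → ℕ} {B : List ℕ}

theorem chkCjsB_spec {T : List ℕ} {A : ℕ} : ∀ (R c : List ℕ), chkCjsB B T A R c = true →
    ∀ C ∈ R, ∃ e, chkCjB B T A C e = true := by
  intro R
  induction R with
  | nil => intro c _ B hB; exact absurd hB (by simp)
  | cons C R ih =>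
    intro c hc C' hC'
    match c with
    | [] => exact absurd hc (by simp [chkCjsB])
    | e :: c =>
      rw [chkCjsB, band_eq_true] at hc
      rcases List.mem_cons.1 hC' with rfl | h
      · exact ⟨e, hc.1⟩
      · exact ih c hc.2 C' h

theorem pc_of_chkB (hB : ∀ i ∈ B, i < N) (hone : ∀ i, i < N → f 1 i = i)
    (hmul : ∀ g h i, i < N → f (g * h) i = f g (f h i))
    (hlt : ∀ g i, i < N → f g i < N) (hinj : ∀ g h, (∀ i ∈ B, f g i = f h i) → g = h) {F : ℕ → G} :
    ∀ (R T : List ℕ) (cs : List (List ℕ)), (∀ A ∈ T ++ R, ∀ i, i < N → f (F A) i = lk A i) → Pc (T.map F) →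
      chkPCB B T R cs = true → Pc ((T ++ R).map F) := by
  intro R
  induction R with
  | nil => intro T cs _ h _; rwa [List.append_nil]
  | cons A R ih =>
    intro T cs hT h hc
    match cs with
    | [] => exact absurd hc (by simp [chkPCB])
    | [] :: cs => exact absurd hc (by simp [chkPCB])
    | (e :: c) :: cs =>
      rw [chkPCB, band_eq_true, band_eq_true] at hc
      obtain ⟨h1, h2, h3⟩ := hc
      have hTT : ∀ B ∈ T, ∀ i, i < N → f (F B) i = lk B i := fun B hB => hT B (List.mem_append_left _ hB)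
      have hA : ∀ i, i < N → f (F A) i = lk A i := hT A (List.mem_append_right _ List.mem_cons_self)
      have h4 := ih (T ++ [A]) cs (by
        intro B hB
        apply hT
        rw [List.append_assoc] at hB
        exact hB) (by
        rw [List.map_append, List.map_cons, List.map_nil]
        refine Pc.snoc h ?_ ?_
        · have h5 : F A * F A = pr (T.map F) e := by
            apply hinj
            intro i hiB
            have hi := hB i hiB
            have h6 := (allL_iff _ _).1 h1 i hiB
            rw [hmul _ _ i hi, f_pr hone hmul hlt T hTT e i hi, hA i hi, hA _ (by rw [← hA i hi]; exact hlt _ _ hi)]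
            exact Nat.eq_of_beq_eq_true h6
          rw [h5]
          exact pr_mem _ _
        · intro b hb
          obtain ⟨C, hC, rfl⟩ := List.mem_map.1 hb
          obtain ⟨e', he'⟩ := chkCjsB_spec T c h2 C hC
          have h5 : F A * F C = pr (T.map F) e' * F A := by
            apply hinj
            intro i hiB
            have hi := hB i hiB
            have h6 := (allL_iff _ _).1 he' i hiB
            rw [hmul _ _ i hi, hmul _ _ i hi, hTT C hC i hi, hA i hi,
              f_pr hone hmul hlt T hTT e' _ (by rw [← hA i hi]; exact hlt _ _ hi),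
              hA _ (by rw [← hTT C hC i hi]; exact hlt _ _ hi)]
            exact Nat.eq_of_beq_eq_true h6
          rw [h5, mul_inv_cancel_right]
          exact pr_mem _ _) h3
      rw [List.append_assoc] at h4
      exact h4

/-- **The criterion with a base.** -/
theorem meetIn_of_tabB [Finite G] (hB : ∀ i ∈ B, i < N) (hone : ∀ i, i < N → f 1 i = i)
    (hmul : ∀ g h i, i < N → f (g * h) i = f g (f h i))
    (hlt : ∀ g i, i < N → f g i < N) (hinj : ∀ g h, (∀ i ∈ B, f g i = f h i) → g = h)
    (T : List ℕ) (hT : ∀ A ∈ T, ∃ g : G, ∀ i, i < N → f g i = lk A i) (X : ℕ)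
    (hX : ∃ g : G, ∀ i, i < N → f g i = lk X i)
    (cs : List (List ℕ)) (ts : List Test)
    (hpc : chkPCB B [] T cs = true) (hp : ts.all (chkP N) = true) (hV : ts.all (chkVR N T X) = true)
    (hU : chkUR N T X T.length ts = true) (hcard : ¬ 2 ^ (T.length + 1) ∣ Nat.card G) : MeetIn 2 G := by
  classical
  let F : ℕ → G := fun A => if h : ∃ g : G, ∀ i, i < N → f g i = lk A i then h.choose else 1
  have hF : ∀ A ∈ T, ∀ i, i < N → f (F A) i = lk A i := by
    intro A hA
    have h := hT A hA
    simp only [F]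
    rw [dif_pos h]
    exact h.choose_spec
  obtain ⟨x, hx⟩ := hX
  have h1 : Pc (([] ++ T).map F) := pc_of_chkB hB hone hmul hlt hinj T [] cs (by simpa using hF) Pc.nil hpc
  rw [List.nil_append] at h1
  refine h1.meetIn (x := x) ?_ (by rw [List.length_map]; exact hcard)
  rw [List.length_map]
  intro e e' he he' h
  by_contra he0
  have h2 := allBin_spec _ _ hU e he
  rw [mul_zero, zero_add] at h2
  have h3 : Nat.beq e 0 = false := by
    rw [Bool.eq_false_iff]
    intro h4
    exact he0 (Nat.eq_of_beq_eq_true h4)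
  rw [h3] at h2
  obtain ⟨t, ht, hb⟩ := anyT_spec ts h2
  have h4 := chkVR_spec (List.all_eq_true.1 hV t ht) e'
  have h5 := List.all_eq_true.1 hp t ht
  unfold chkP at h5
  rw [band_eq_true, band_eq_true, Nat.blt_eq, Nat.blt_eq, Nat.blt_eq] at h5
  have h6 : ∀ q, q < N → lk X (evp T e q) = evp T e' (lk X q) := by
    intro q hq
    have h7 : f (x * pr (T.map F) e) q = f (pr (T.map F) e' * x) q := by rw [h]
    rw [hmul _ _ q hq, hmul _ _ q hq, f_pr hone hmul hlt T hF e q hq, hx q hq,
      hx _ (by rw [← f_pr hone hmul hlt T hF e q hq]; exact hlt _ _ hq),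
      f_pr hone hmul hlt T hF e' _ (by rw [← hx q hq]; exact hlt _ _ hq)] at h7
    exact h7
  have h8 : hsh N t.md t.p1 t.p2 t.p3 (fun q => lk X (evp T e q)) =
      hsh N t.md t.p1 t.p2 t.p3 (fun q => evp T e' (lk X q)) := by
    unfold hsh
    simp only [h6 t.p1 h5.1, h6 t.p2 h5.2.1, h6 t.p3 h5.2.2]
  rw [h8, h4] at hb
  exact absurd hb (by simp)

end main

open Equiv in
/-- the criterion for permutation groups with a base -/
theorem meetIn_permB {N : ℕ} {Q : Subgroup (Perm (Fin N))} (B : List ℕ) (hB : allL (fun i => Nat.blt i N) B = true)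
    (hinj : ∀ g ∈ Q, ∀ h ∈ Q, (∀ i : Fin N, (i : ℕ) ∈ B → g i = h i) → g = h)
    (T : List ℕ) (hT : ∀ A ∈ T, InG Q A) (X : ℕ)
    (hX : InG Q X) (cs : List (List ℕ)) (ts : List Test)
    (hpc : chkPCB B [] T cs = true) (hp : ts.all (chkP N) = true) (hV : ts.all (chkVR N T X) = true)
    (hU : chkUR N T X T.length ts = true) (hcard : ¬ 2 ^ (T.length + 1) ∣ Nat.card Q) : MeetIn 2 Q := by
  let f : Q → ℕ → ℕ := fun g i => if h : i < N then ((g : Perm (Fin N)) ⟨i, h⟩ : ℕ) else i
  have hf : ∀ (g : Q) (i : ℕ) (h : i < N), f g i = ((g : Perm (Fin N)) ⟨i, h⟩ : ℕ) := by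
    intro g i h
    simp only [f]
    rw [dif_pos h]
  have hin : ∀ A, InG Q A → ∃ g : Q, ∀ i, i < N → f g i = lk A i := by
    rintro A ⟨g, hg, h⟩
    refine ⟨⟨g, hg⟩, fun i hi => ?_⟩
    rw [hf _ _ hi]
    exact h ⟨i, hi⟩
  have hBN : ∀ i ∈ B, i < N := by
    intro i hi
    have := (allL_iff _ _).1 hB i hi
    rwa [Nat.blt_eq] at this
  refine meetIn_of_tabB (f := f) (N := N) (B := B) hBN ?_ ?_ ?_ ?_ T (fun A hA => hin A (hT A hA)) X (hin X hX) cs ts
    hpc hp hV hU hcard
  · intro i hi
    rw [hf _ _ hi]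
    rfl
  · intro g h i hi
    rw [hf _ _ hi, hf h _ hi, hf g _ (Fin.is_lt _)]
    rfl
  · intro g i hi
    rw [hf _ _ hi]
    exact Fin.is_lt _
  · intro g h hgh
    apply Subtype.ext
    refine hinj g g.2 h h.2 fun i hi => ?_
    apply Fin.ext
    have := hgh i hi
    rw [hf _ _ i.2, hf _ _ i.2] at this
    exact this

end Cfsg.Agent.H265.MeetT
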